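import Cfsg.Agent.Lib.SQF.Red
import Cfsg.Prelude.Def_Transfer

/-! Vocabulary for S4131. -/

set_option autoImplicit false

namespace H50.SQ

open Subgroup H50.RC

variable {G : Type*} [Group G]

/-- the `p'`-elements of `H` lie in a normal `p'`-subgroup -/
def NilP (p : ℕ) (H : Subgroup G) : Prop :=
  ∃ O : Subgroup G, O ≤ H ∧ H ≤ normalizer (O : Set G) ∧ (Nat.card O).Coprime p ∧
    ∀ g ∈ H, (orderOf g).Coprime p → g ∈ O

/-- the order of `x` is a power of a prime other than `p` -/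
def PQ (p : ℕ) (x : G) : Prop := ∃ r k : ℕ, r.Prime ∧ r ≠ p ∧ orderOf x = r ^ k

/-- the hypothesis of S4131 -/
def HP (p : ℕ) (G : Type*) [Group G] : Prop := ∀ x : G, PQ p x → ¬ p ^ 2 ∣ (C x).index

/-- some `r`-element of `Y` (`r ≠ p`) centralises no element of order `p` -/
def OutP (p : ℕ) (Y : Subgroup G) : Prop :=
  ∃ y ∈ Y, PQ p y ∧ ∀ u : G, u ^ p = 1 → u * y = y * u → u = 1

/-- the centralisers in `Y` of the elements of order `p` have normal `p`-complements -/
def IP (p : ℕ) (Y : Subgroup G) : Prop := ∀ u : G, u ^ p = 1 → u ≠ 1 → NilP p (Y ⊓ C u)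

/-- centralisers of involutions are 2-groups -/
def Cit (L : Type*) [Group L] : Prop :=
  ∀ t : L, orderOf t = 2 → IsPGroup 2 (centralizer ({t} : Set L))

/-- the involutions of a Sylow 2-subgroup are central in it -/
def Cz (L : Type*) [Group L] : Prop :=
  ∀ U : Sylow 2 L, ∀ a ∈ U, a * a = 1 → ∀ b ∈ U, a * b = b * a

theorem nil2_iff {H : Subgroup G} : Nil2 H ↔ NilP 2 H := by
  simp only [Nil2, NilP, Nat.coprime_two_right]

theorem pq_two {x : G} (h : PP x) (ho : Odd (orderOf x)) : PQ 2 x := by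
  obtain ⟨r, k, hr, hk⟩ := h
  by_cases e : r = 2
  · subst e
    rcases k with _ | k
    · exact ⟨3, 0, Nat.prime_three, by decide, hk⟩
    · rw [hk] at ho
      exact absurd ho (by simp [pow_succ])
  · exact ⟨r, k, hr, e, hk⟩

end H50.SQ
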