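import Cfsg.Agent.Lib.SQG.NP2

set_option autoImplicit false

namespace H50.SQ

open Subgroup H50.RC

variable {G X : Type*} [Group G] [Finite G] [Group X] {p : ℕ} [Fact p.Prime] {F : Subgroup G}

theorem down_nil (π : normalizer (F : Set G) →* X) (hk : ∀ g, π g = 1 ↔ (g : G) ∈ F)
    (h : NilP p (Yim F π)) : NilP p (centralizer (F : Set G)) := by
  have h1 := (NilP.of_central π h fun g _ e a ha => mem_centralizer_singleton_iff.2
    (Subtype.ext (mem_subgroupOf.1 ha g ((hk g).1 e)).symm)).map (normalizer (F : Set G)).subtype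
  rw [subgroupOf_map_subtype] at h1
  exact h1.mono (le_inf le_rfl (centralizer_le_normalizer _))

namespace Down

omit [Finite G] in
theorem pow_comm' {g u φ : G} (h : g * u = φ * u * g) (c : Commute g φ) (i : ℕ) :
    g ^ i * u = φ ^ i * u * g ^ i := by
  induction i with
  | zero => simp
  | succ i ih =>
    rw [pow_succ', mul_assoc, ih, ← mul_assoc, ← mul_assoc, (c.pow_right i).eq, mul_assoc (φ ^ i), h,
      pow_succ φ]
    simp only [mul_assoc]

end Down

theorem down_ip (hF : IsPGroup p F) (π : normalizer (F : Set G) →* X) (hs : Function.Surjective π)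
    (hk : ∀ g, π g = 1 ↔ (g : G) ∈ F)
    (hmax : ∀ F1 : Subgroup G, IsPGroup p F1 → F < F1 → NilP p (centralizer (F1 : Set G))) :
    IP p (Yim F π) := by
  intro u h1 h2
  have := Finite.of_surjective π hs
  obtain ⟨v, rfl⟩ := hs u
  have pF : ∀ x ∈ F, ∃ k : ℕ, x ^ p ^ k = 1 := fun x hx =>
    let ⟨k, e⟩ := hF ⟨x, hx⟩; ⟨k, congrArg Subtype.val e⟩
  have h3 := hmax (((zpowers (π v)).comap π).map (normalizer (F : Set G)).subtype) (by
    rintro ⟨_, g, ⟨n, hn⟩, rfl⟩
    obtain ⟨k, e⟩ := pF _ ((hk (g ^ p)).1 (by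
      rw [map_pow, ← hn, ← zpow_natCast, ← zpow_mul, mul_comm, zpow_mul, zpow_natCast, h1, one_zpow]))
    refine ⟨k + 1, Subtype.ext ?_⟩
    rw [pow_succ', pow_mul]
    exact e) (lt_of_le_not_ge (fun x hx => ⟨⟨x, le_normalizer hx⟩,
      mem_comap.2 (by rw [(hk ⟨x, le_normalizer hx⟩).2 hx]; exact one_mem _), rfl⟩)
      fun e => h2 ((hk v).2 (e ⟨v, mem_comap.2 (mem_zpowers _), rfl⟩)))
  have h4 : NilP p (((centralizer (F : Set G)).subgroupOf (normalizer (F : Set G)) ⊓ (C (π v)).comap π).map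
      (normalizer (F : Set G)).subtype) := by
    refine NilP.ext (h3.mono inf_le_right) inf_le_left ?_
    rintro _ ⟨g, hg, rfl⟩
    have c1 : ∀ x ∈ F, Commute (g : G) x := fun x hx => (mem_subgroupOf.1 hg.1 x hx).symm
    have c2 : π g * π v = π v * π g := mem_centralizer_singleton_iff.1 hg.2
    have c3 := (hk (g * v * g⁻¹ * v⁻¹)).1 (by simp only [map_mul, map_inv, c2]; group)
    obtain ⟨k, e⟩ := pF _ c3
    have c4 := Down.pow_comm' (g := (g : G)) (u := v) (by simp) (c1 _ c3) (p ^ k)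
    rw [e, one_mul] at c4
    refine ⟨k, pow_mem (mem_map_of_mem _ hg) _, ?_⟩
    rintro _ ⟨x, ⟨n, hn⟩, rfl⟩
    have c5 := c1 _ ((hk (x * (v ^ n)⁻¹)).1 (by rw [map_mul, map_inv, map_zpow, ← hn, mul_inv_cancel]))
    have c6 := (c5.pow_left (p ^ k)).mul_right ((show Commute _ _ from c4).zpow_right n)
    simpa using c6.symm.eq
  refine ((NilP.of_map _ h4 fun g _ e => by rw [show g = 1 from Subtype.ext e]; simp).map π).mono ?_
  rintro _ ⟨⟨g, hg, rfl⟩, e⟩
  exact ⟨g, ⟨hg, e⟩, rfl⟩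

end H50.SQ
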