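import Cfsg.Agent.Lib.SQG.NP1

set_option autoImplicit false

namespace H50.SQ

open Subgroup H50.RC

variable {G X : Type*} [Group G] [Finite G] [Group X] {p : ℕ} [Fact p.Prime] {F : Subgroup G}

private theorem exists_norm_p {R S : Subgroup G} (hS : IsPGroup p S) (hlt : R < S) :
    ∃ g ∈ S, g ∉ R ∧ g ^ p ∈ R ∧ g ∈ normalizer (R : Set G) := by
  have hnil : Group.IsNilpotent S := hS.isNilpotent
  have hnc := Group.normalizerCondition_of_isNilpotent (G := S)
  have hlt' : R.subgroupOf S < ⊤ := by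
    rw [lt_top_iff_ne_top, Ne, subgroupOf_eq_top]
    exact fun h => hlt.not_ge h
  obtain ⟨⟨g, hgS⟩, hg, hgR⟩ := SetLike.exists_of_lt (hnc _ hlt')
  have hgn : g ∈ normalizer (R : Set G) :=
    mem_normalizer_fintype fun h hh => (mem_normalizer_iff.1 hg ⟨h, hlt.le hh⟩).1 hh
  have hgR' : g ∉ R := hgR
  obtain ⟨t, ht0⟩ := hS ⟨g, hgS⟩
  have ht : g ^ p ^ t = 1 := congrArg Subtype.val ht0
  clear hg hgR hlt' ht0
  induction t generalizing g with
  | zero => exact absurd (by rw [pow_zero, pow_one] at ht; rw [ht]; exact one_mem _) hgR'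
  | succ t ih =>
    by_cases h2 : g ^ p ∈ R
    · exact ⟨g, hgS, hgR', h2, hgn⟩
    · exact ih (g ^ p) (pow_mem hgS p) (pow_mem hgn p) h2 (by rw [← pow_mul, ← pow_succ', ht])

theorem fin_p (h : HP p G) (hF : IsPGroup p F) (π : normalizer (F : Set G) →* X)
    (hk : ∀ g, π g = 1 ↔ (g : G) ∈ F) (o : OutP p (Yim F π))
    (hd : p ^ 2 ∣ Nat.card (Yim F π)) : False := by
  obtain ⟨y, hy, pp, ni⟩ := o
  obtain ⟨y0, yC, rfl, r, k, hr, rp, e⟩ := pq_lift π hy pp
  refine h y0 ⟨r, k, hr, rp, by rw [orderOf_coe, e]⟩ ?_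
  have le : F ≤ C (y0 : G) := fun f hf => mem_C.2 (mem_subgroupOf.1 yC f hf)
  obtain ⟨Q, hQ⟩ := (hF.comap_subtype (K := C (y0 : G))).exists_le_sylow
  have e1 : F = (Q : Subgroup (C (y0 : G))).map (C (y0 : G)).subtype := by
    by_contra ne
    obtain ⟨g, hg, gF, g2, gN⟩ := exists_norm_p (Q.isPGroup'.map _)
      (lt_of_le_of_ne (fun p hp => ⟨⟨p, le hp⟩, hQ hp, rfl⟩) ne)
    refine gF ((hk ⟨g, gN⟩).1 (ni _ ?_ ?_))
    · rw [← map_pow, hk]; exact g2
    · rw [← map_mul, ← map_mul]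
      exact congrArg π (Subtype.ext (mem_C.1 (map_subtype_le _ hg)))
  have e2 : Nat.card F = Nat.card Q := by
    rw [← card_map_of_injective (C (y0 : G)).subtype_injective, ← e1]
  have e3 : π.ker = F.subgroupOf (normalizer (F : Set G)) := by ext g; exact hk g
  have e4 : Nat.card F * Nat.card π.range = Nat.card (normalizer (F : Set G)) := by
    rw [← index_ker, ← π.ker.card_mul_index, e3, Nat.card_congr (subgroupOfEquivOfLe le_normalizer).toEquiv]
  have d3 : Nat.card F * p ^ 2 ∣ Nat.card G :=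
    ((Nat.mul_dvd_mul_left _ (hd.trans (card_dvd_of_le (map_le_range π _)))).trans e4.dvd).trans
      (card_subgroup_dvd_card _)
  rw [← (C (y0 : G)).card_mul_index, ← (Q : Subgroup (C (y0 : G))).card_mul_index, e2,
    mul_assoc, Nat.mul_dvd_mul_iff_left Nat.card_pos] at d3
  exact (Nat.Coprime.pow_left 2 (((Fact.out : p.Prime).coprime_iff_not_dvd).2 Q.not_dvd_index)).dvd_of_dvd_mul_left d3

end H50.SQ
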