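import Cfsg.Agent.Lib.SQG.Defs
import Cfsg.Agent.Lib.GL.Basic

set_option autoImplicit false

namespace H50.SQ

open Subgroup H50.RC

open Matrix MatrixGroups

namespace L34

theorem ch3 {F : Type*} [Field F] (M : Matrix (Fin 3) (Fin 3) F) :
    M ^ 3 = M.trace • M ^ 2 - M.adjugate.trace • M + M.det • (1 : Matrix (Fin 3) (Fin 3) F) := by
  ext i j
  fin_cases i <;> fin_cases j <;>
    simp [pow_succ, adjugate_fin_three, det_fin_three, trace_fin_three, Matrix.mul_apply, Fin.sum_univ_three] <;>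
    ring

theorem eq_one {F : Type*} [Field F] (h2 : (2 : F) = 0) {t : F} (ht : t ^ 4 = t) {M : Matrix (Fin 3) (Fin 3) F}
    (h3 : M ^ 3 = t • M ^ 2 - t • M + 1) : M ^ 3 = 1 ∨ M ^ 4 = 1 ∨ M ^ 5 = 1 := by
  have h4 : M ^ 4 = t • M ^ 3 - t • M ^ 2 + M := by
    simpa [mul_sub, mul_add, ← pow_succ', ← sq] using congrArg (M * ·) h3
  have h5 : M ^ 5 = t • M ^ 4 - t • M ^ 3 + M ^ 2 := by
    simpa [mul_sub, mul_add, ← pow_succ', ← sq] using congrArg (M * ·) h4
  have : t * (t - 1) * (t ^ 2 + t + 1) = 0 := by linear_combination ht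
  rcases mul_eq_zero.1 this with e | e
  · rcases mul_eq_zero.1 e with e | e
    · exact Or.inl (by simpa [e] using h3)
    · rw [sub_eq_zero.1 e] at h3 h4
      exact Or.inr (Or.inl (by rw [h4, h3]; module))
  · have a2 : t ^ 3 - 2 * t ^ 2 + 1 = 0 := by linear_combination (t - 1) * e + (1 - t ^ 2) * h2
    have a1 : -t ^ 3 + t ^ 2 + t = 0 := by linear_combination (2 - t) * e - h2
    have a0 : t ^ 2 - t = 1 := by linear_combination e - (t + 1) * h2
    have : M ^ 5 = (t ^ 3 - 2 * t ^ 2 + 1) • M ^ 2 + (-t ^ 3 + t ^ 2 + t) • M + (t ^ 2 - t) • 1 := by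
      rw [h5, h4, h3]; module
    exact Or.inr (Or.inr (by simpa [a2, a1, a0] using this))

end L34

theorem psl34 {F : Type*} [Field F] [Fintype F] (hF : Fintype.card F = 4) :
    Even (Nat.card PSL(3, F)) ∧
      ∃ y : PSL(3, F), orderOf y = 7 ∧ ∀ j : PSL(3, F), j * y * j⁻¹ ≠ y⁻¹ := by
  have hN : Nat.card F = 4 := by rw [Nat.card_eq_fintype_card, hF]
  have hc : Nat.card PSL(3, F) = 20160 := by
    have := H10.card_PSL_fin (F := F) 3 (by norm_num)
    rw [hN, Fin.prod_univ_three] at this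
    norm_num at this
    omega
  have hz : Nat.card (center SL(3, F)) = 3 := by
    rw [H10.card_center_SL, hN, Fintype.card_fin]; rfl
  have z3 : ∀ z ∈ center SL(3, F), z ^ 3 = 1 := fun z h => by
    have := congrArg Subtype.val (pow_card_eq_one' (x := (⟨z, h⟩ : center SL(3, F))))
    rwa [hz] at this
  have h2 : (2 : F) = 0 := by
    have : ((2 : F)) ^ 2 = 0 := by
      have := FiniteField.cast_card_eq_zero F
      rw [hF] at this
      linear_combination this
    exact pow_eq_zero_iff two_ne_zero |>.1 this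
  have : Fact (Nat.Prime 7) := ⟨by norm_num⟩
  obtain ⟨y, hy⟩ := exists_prime_orderOf_dvd_card' (G := PSL(3, F)) 7 (by rw [hc]; norm_num)
  refine ⟨by rw [hc]; decide, y, hy, fun j h => ?_⟩
  obtain ⟨A0, e0⟩ := QuotientGroup.mk'_surjective (center SL(3, F)) y
  obtain ⟨J, rfl⟩ := QuotientGroup.mk'_surjective (center SL(3, F)) j
  have y7 : y ^ 7 = 1 := hy ▸ pow_orderOf_eq_one y
  have eA : QuotientGroup.mk' (center SL(3, F)) (A0 ^ 15) = y := by
    rw [map_pow, e0, show 15 = 7 * 2 + 1 from rfl, pow_succ, pow_mul, y7, one_pow, one_mul]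
  have A7 : (A0 ^ 15) ^ 7 = 1 := by
    rw [← pow_mul, show 15 * 7 = 7 * 3 * 5 from rfl, pow_mul, pow_mul,
      z3 _ ((QuotientGroup.eq_one_iff _).1 ((map_pow (QuotientGroup.mk' _) A0 7).trans (by rw [e0, y7]))), one_pow]
  generalize A0 ^ 15 = A at eA A7
  have hzc : J * A * J⁻¹ * A ∈ center SL(3, F) := (QuotientGroup.eq_one_iff _).1 (by
    show QuotientGroup.mk' (center SL(3, F)) _ = 1
    rw [map_mul, map_mul, map_mul, map_inv, eA, h, inv_mul_cancel])
  have z7 : (J * A * J⁻¹ * A) ^ 7 = 1 := by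
    have c : Commute (J * A * J⁻¹) A := by
      have := mem_center_iff.1 hzc A
      rw [← mul_assoc] at this
      exact (mul_right_cancel this).symm
    rw [c.mul_pow, conj_pow, A7, mul_one, mul_one, mul_inv_cancel]
  have z1 : J * A * J⁻¹ = A⁻¹ := eq_inv_of_mul_eq_one_left (by
    have := pow_gcd_eq_one.2 ⟨z7, z3 _ hzc⟩
    rwa [show Nat.gcd 7 3 = 1 from rfl, pow_one] at this)
  have tr : A.1.adjugate.trace = A.1.trace := by
    have a : A.1.adjugate = J.1 * A.1 * (J⁻¹).1 := (congrArg Subtype.val z1).symm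
    have b : (J⁻¹).1 * J.1 = 1 := congrArg Subtype.val (inv_mul_cancel J)
    rw [a, trace_mul_cycle, b, one_mul]
  have h3 := L34.ch3 A.1
  rw [tr, A.2, one_smul] at h3
  have A1 : A = 1 := by
    have key : ∀ k, Nat.gcd 7 k = 1 → A.1 ^ k = 1 → A = 1 := fun k hk e => by
      have := pow_gcd_eq_one.2 ⟨A7, (Subtype.ext e : A ^ k = 1)⟩
      rwa [hk, pow_one] at this
    rcases L34.eq_one h2 (hF ▸ FiniteField.pow_card _) h3 with e | e | e
    exacts [key 3 rfl e, key 4 rfl e, key 5 rfl e]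
  rw [← eA, A1, map_one, orderOf_one] at hy
  exact absurd hy (by decide)

end H50.SQ
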