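import Cfsg.Agent.Lib.SQG.Defs

set_option autoImplicit false

namespace H50.SQ

open Subgroup H50.RC

variable {G : Type*} [Group G] [Finite G] {p : ℕ} [Fact p.Prime] {H K : Subgroup G}

theorem NilP.spec (h : NilP p H) : ∃ O : Subgroup G, (Nat.card O).Coprime p ∧
    ∀ g, g ∈ O ↔ g ∈ H ∧ (orderOf g).Coprime p := by
  obtain ⟨O, h1, -, h3, h4⟩ := h
  exact ⟨O, h3, fun g => ⟨fun hg => ⟨h1 hg, Nat.Coprime.coprime_dvd_left
    (orderOf_dvd_natCard O hg) h3⟩, fun hg => h4 g hg.1 hg.2⟩⟩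

theorem nilP_of_mul (h : ∀ a ∈ H, ∀ b ∈ H, (orderOf a).Coprime p → (orderOf b).Coprime p →
    (orderOf (a * b)).Coprime p) : NilP p H := by
  have hp : p.Prime := Fact.out
  let O : Subgroup G :=
    { carrier := {g | g ∈ H ∧ (orderOf g).Coprime p}
      one_mem' := ⟨one_mem _, by simp⟩
      mul_mem' := fun ha hb => ⟨mul_mem ha.1 hb.1, h _ ha.1 _ hb.1 ha.2 hb.2⟩
      inv_mem' := fun ha => ⟨inv_mem ha.1, by rw [orderOf_inv]; exact ha.2⟩ }
  have key : ∀ g ∈ H, ∀ a ∈ O, g * a * g⁻¹ ∈ O := fun g hg a ha =>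
    ⟨mul_mem (mul_mem hg ha.1) (inv_mem hg), by
      rw [show g * a * g⁻¹ = MulAut.conj g a from rfl, MulEquiv.orderOf_eq]; exact ha.2⟩
  refine ⟨O, fun _ h => h.1, fun g hg => mem_normalizer_iff.2 fun a => ⟨key g hg a, fun ha => ?_⟩,
    ?_, fun g hg ho => ⟨hg, ho⟩⟩
  · simpa [mul_assoc] using key g⁻¹ (inv_mem hg) _ ha
  · refine ((Nat.Prime.coprime_iff_not_dvd hp).2 fun hd => ?_).symm
    obtain ⟨x, hx⟩ := exists_prime_orderOf_dvd_card' p hd
    have := x.2.2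
    rw [orderOf_coe, hx, Nat.coprime_self] at this
    exact hp.ne_one this

private theorem mul_cop (h : NilP p H) {a b : G} (ha : a ∈ H) (hb : b ∈ H)
    (oa : (orderOf a).Coprime p) (ob : (orderOf b).Coprime p) : (orderOf (a * b)).Coprime p := by
  obtain ⟨O, -, hO⟩ := h.spec
  exact ((hO _).1 (O.mul_mem ((hO a).2 ⟨ha, oa⟩) ((hO b).2 ⟨hb, ob⟩))).2

theorem NilP.mono (h : NilP p H) (hK : K ≤ H) : NilP p K :=
  nilP_of_mul fun _ ha _ hb => mul_cop h (hK ha) (hK hb)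

theorem NilP.ext (h : NilP p K) (hK : K ≤ H) (hp : ∀ g ∈ H, ∃ k : ℕ, g ^ p ^ k ∈ K) :
    NilP p H := by
  have key : ∀ g ∈ H, (orderOf g).Coprime p → g ∈ K := by
    intro g hg ho
    obtain ⟨k, hk⟩ := hp g hg
    obtain ⟨m, hm⟩ := exists_pow_eq_self_of_coprime (x := g) (n := p ^ k) (ho.symm.pow_left k)
    exact hm ▸ K.pow_mem hk m
  have _ := hK
  exact nilP_of_mul fun a ha b hb oa ob => mul_cop h (key a ha oa) (key b hb ob) oa ob

theorem pq_lift {X : Type*} [Group X] (f : G →* X) {y : X} (hy : y ∈ H.map f) (hp : PQ p y) :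
    ∃ x ∈ H, f x = y ∧ PQ p x := by
  obtain ⟨g, hg, rfl⟩ := hy
  obtain ⟨r, k, hr, hrp, hk⟩ := hp
  obtain ⟨t, q, hq, hN⟩ := Nat.exists_eq_pow_mul_and_not_dvd (orderOf_pos g).ne' r hr.ne_one
  have hc : Nat.Coprime (r ^ k) q :=
    Nat.Coprime.pow_left _ ((Nat.Prime.coprime_iff_not_dvd hr).2 hq)
  obtain ⟨m, hm1, hm2⟩ := Nat.chineseRemainder hc 1 0
  have hpow : (g ^ m) ^ r ^ t = 1 := by
    rw [← pow_mul]
    apply orderOf_dvd_iff_pow_eq_one.1
    rw [hN, mul_comm]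
    exact Nat.mul_dvd_mul_right ((Nat.modEq_zero_iff_dvd).1 hm2) _
  obtain ⟨j, -, hj⟩ := (Nat.dvd_prime_pow hr).1 (orderOf_dvd_of_pow_eq_one hpow)
  refine ⟨g ^ m, pow_mem hg m, ?_, r, j, hr, hrp, hj⟩
  rw [map_pow]
  conv_rhs => rw [← pow_one (f g)]
  rw [pow_eq_pow_iff_modEq, hk]
  exact hm1

private theorem cop_lift {X : Type*} [Group X] (f : G →* X) {y : X} (hy : y ∈ H.map f)
    (ho : (orderOf y).Coprime p) : ∃ x ∈ H, f x = y ∧ (orderOf x).Coprime p := by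
  have hp : p.Prime := Fact.out
  obtain ⟨g, hg, rfl⟩ := hy
  obtain ⟨t, q, hq, hN⟩ := Nat.exists_eq_pow_mul_and_not_dvd (orderOf_pos g).ne' p hp.ne_one
  obtain ⟨m, hm⟩ := exists_pow_eq_self_of_coprime (x := f g) (n := p ^ t) (ho.symm.pow_left t)
  refine ⟨(g ^ p ^ t) ^ m, pow_mem (pow_mem hg _) _, by rw [map_pow, map_pow, hm], ?_⟩
  refine Nat.Coprime.coprime_dvd_left (orderOf_dvd_of_pow_eq_one (n := q) ?_)
    ((Nat.Prime.coprime_iff_not_dvd hp).2 hq).symm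
  rw [← pow_mul, mul_comm m q, pow_mul, ← pow_mul g, ← hN, pow_orderOf_eq_one, one_pow]

theorem NilP.map {X : Type*} [Group X] (h : NilP p H) (f : G →* X) : NilP p (H.map f) := by
  obtain ⟨O, h1, h2, h3, h4⟩ := h
  refine ⟨O.map f, map_mono h1, ?_, Nat.Coprime.coprime_dvd_left (card_map_dvd O f) h3,
    fun y hy ho => ?_⟩
  · exact (map_mono h2).trans (le_normalizer_map f)
  · obtain ⟨x, hx, rfl, ox⟩ := cop_lift f hy ho
    exact mem_map_of_mem f (h4 x hx ox)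

theorem NilP.of_map {X : Type*} [Group X] (f : G →* X) (h : NilP p (H.map f))
    (hk : ∀ g ∈ H, f g = 1 → (orderOf g).Coprime p) : NilP p H := by
  obtain ⟨O, h1, -, h3, h4⟩ := h
  refine nilP_of_mul fun a ha b hb oa ob => ?_
  have m : ∀ g ∈ H, (orderOf g).Coprime p → f g ∈ O := fun g hg ho =>
    h4 _ (mem_map_of_mem f hg) (Nat.Coprime.coprime_dvd_left (orderOf_map_dvd f g) ho)
  have hab : f (a * b) ∈ O := by rw [map_mul]; exact O.mul_mem (m a ha oa) (m b hb ob)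
  have e : f ((a * b) ^ Nat.card O) = 1 := by
    rw [map_pow]
    exact orderOf_dvd_iff_pow_eq_one.1 (orderOf_dvd_natCard O hab)
  have c := hk _ (pow_mem (mul_mem ha hb) _) e
  refine Nat.Coprime.coprime_dvd_left (orderOf_dvd_of_pow_eq_one
    (n := Nat.card O * orderOf ((a * b) ^ Nat.card O)) ?_) (Nat.Coprime.mul_left h3 c)
  rw [pow_mul, pow_orderOf_eq_one]

end H50.SQ
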