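import Cfsg.Agent.Lib.SQG.NP1
import Cfsg.Agent.Lib.Transfer.NormalComplement

set_option autoImplicit false

namespace H50.SQ

open Subgroup H50.RC

variable {G : Type*} [Group G] [Finite G] {p : ℕ} [Fact p.Prime] {H : Subgroup G}

private theorem nilP_iff' : NilP p H ↔ Cfsg.HasNormalPComplement p H := by
  rw [H4.hasNormalPComplement_iff_mul_closed]
  constructor
  · intro h x y hx hy
    obtain ⟨O, -, hO⟩ := h.spec
    rw [← Subgroup.orderOf_coe] at hx hy ⊢
    exact ((hO _).1 (mul_mem ((hO _).2 ⟨x.2, hx⟩) ((hO _).2 ⟨y.2, hy⟩))).2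
  · intro h
    refine nilP_of_mul fun a ha b hb h1 h2 => ?_
    have := h ⟨a, ha⟩ ⟨b, hb⟩ (by rwa [Subgroup.orderOf_mk]) (by rwa [Subgroup.orderOf_mk])
    rwa [← Subgroup.orderOf_coe] at this

theorem nilP_top_iff : NilP p (⊤ : Subgroup G) ↔ Cfsg.HasNormalPComplement p G :=
  nilP_iff'.trans H4.hasNormalPComplement_top_iff

theorem nilP_iff : NilP p H ↔ Cfsg.HasNormalPComplement p H := nilP_iff'

theorem NilP.of_central {X : Type*} [Group X] (f : G →* X) (h : NilP p (H.map f))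
    (hk : ∀ g ∈ H, f g = 1 → H ≤ C g) : NilP p H := by
  obtain ⟨O, -, -, hO, hm⟩ := h
  obtain ⟨P⟩ : Nonempty (Sylow p (H ⊓ O.comap f : Subgroup G)) := inferInstance
  have hP : normalizer (P : Set (H ⊓ O.comap f : Subgroup G)) ≤
      centralizer (P : Set (H ⊓ O.comap f : Subgroup G)) := by
    intro g _ x hx
    obtain ⟨k, hk'⟩ := P.2 ⟨x, hx⟩
    have e1 : (x : G) ^ p ^ k = 1 := by
      have := congrArg (fun z : P => ((z : (H ⊓ O.comap f : Subgroup G)) : G)) hk'
      simpa using this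
    have e2 : orderOf (f x) ∣ p ^ k := orderOf_dvd_of_pow_eq_one (by rw [← map_pow, e1, map_one])
    have e3 : orderOf (f x) ∣ Nat.card O := Subgroup.orderOf_dvd_natCard O x.2.2
    have e4 : f x = 1 := orderOf_eq_one_iff.1 (Nat.eq_one_of_dvd_coprimes (hO.pow_right k) e3 e2)
    exact Subtype.ext (mem_centralizer_singleton_iff.1 (hk x x.2.1 e4 g.2.1)).symm
  have hN : NilP p (H ⊓ O.comap f) :=
    nilP_iff.2 ⟨P, _, inferInstance, MonoidHom.ker_transferSylow_isComplement' P hP⟩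
  obtain ⟨O', -, hO'⟩ := hN.spec
  have key : ∀ a ∈ H, (orderOf a).Coprime p → a ∈ O' := fun a ha h1 =>
    (hO' a).2 ⟨⟨ha, hm _ (mem_map_of_mem f ha) (h1.coprime_dvd_left (orderOf_map_dvd f a))⟩, h1⟩
  exact nilP_of_mul fun a ha b hb h1 h2 => ((hO' _).1 (mul_mem (key a ha h1) (key b hb h2))).2

theorem sq_dvd (h : ¬ NilP p H) (hmin : ∀ r : ℕ, r.Prime → r ∣ Nat.card H → p ≤ r) :
    p ^ 2 ∣ Nat.card H := by
  have hp : p.Prime := Fact.out
  by_contra h2
  refine h (nilP_iff.2 ?_)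
  by_cases h1 : p ∣ Nat.card H
  · obtain ⟨P⟩ : Nonempty (Sylow p H) := inferInstance
    have h3 : Nat.card H ≠ 1 := fun e => hp.not_dvd_one (e ▸ h1)
    have h4 : (Nat.card H).minFac = p :=
      le_antisymm (Nat.minFac_le_of_dvd hp.two_le h1) (hmin _ (Nat.minFac_prime h3) (Nat.minFac_dvd _))
    obtain ⟨k, hk⟩ := P.2.exists_card_eq
    have h5 : k ≤ 1 := by
      by_contra h6
      exact h2 ((pow_dvd_pow p (by omega)).trans (hk ▸ (P : Subgroup H).card_subgroup_dvd_card))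
    have h6 : IsCyclic P := isCyclic_of_card_dvd_prime (p := p) (by
      have : Nat.card P = p ^ k := hk
      rw [this]; simpa using pow_dvd_pow p h5)
    exact ⟨P, _, inferInstance, h6.isComplement' h4⟩
  · exact H4.hasNormalPComplement_of_not_dvd h1

end H50.SQ
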