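import Cfsg.Agent.Lib.SQG.NP1
import Cfsg.Agent.Lib.Core.Coprime

set_option autoImplicit false
set_option linter.unusedSectionVars false

namespace H50.SQ

open Subgroup H50.RC

variable {X : Type*} [Group X] [Finite X] {p : ℕ} [Fact p.Prime] {Y : Subgroup X}

namespace PC

/-- a non-trivial `p`-subgroup has an element of order `p` -/
theorem exists_cen {Q : Subgroup X} (hQ : IsPGroup p Q) (Q1 : Q ≠ ⊥) :
    ∃ v ∈ Q, v ^ p = 1 ∧ v ≠ 1 := by
  obtain ⟨n, hn⟩ := IsPGroup.iff_card.1 hQ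
  have hd : p ∣ Nat.card Q := by
    rw [hn]
    refine dvd_pow_self p fun e => Q1 ?_
    rw [e, pow_zero] at hn
    exact card_eq_one.1 hn
  obtain ⟨v, hv⟩ := exists_prime_orderOf_dvd_card' p hd
  refine ⟨v, v.2, ?_, fun e => ?_⟩
  · rw [← hv, ← orderOf_coe, pow_orderOf_eq_one]
  · have : v = 1 := Subtype.ext e
    rw [this, orderOf_one] at hv
    exact (Fact.out : p.Prime).one_lt.ne hv

theorem eq_one {Q : Subgroup X} (hQ : IsPGroup p Q) {g : X} (hg : g ∈ Q) (h : (orderOf g).Coprime p) :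
    g = 1 := by
  obtain ⟨n, hn⟩ := hQ ⟨g, hg⟩
  have h1 : orderOf g ∣ p ^ n := orderOf_dvd_of_pow_eq_one (congrArg Subtype.val hn)
  exact orderOf_eq_one_iff.1 (Nat.Coprime.eq_one_of_dvd (h.pow_right n) h1)

theorem exists_y (hn : ¬ NilP p Y) : ∃ y ∈ Y, ∃ r : ℕ, r.Prime ∧ r ≠ p ∧ orderOf y = r := by
  by_contra hc
  push Not at hc
  refine hn ⟨⊥, bot_le, le_normalizer_of_normal, by simp, fun g hg h => ?_⟩
  by_contra g1
  have o1 : orderOf g ≠ 1 := fun e => g1 (mem_bot.2 (orderOf_eq_one_iff.1 e))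
  obtain ⟨r, hr, hd⟩ := Nat.exists_prime_and_dvd o1
  refine hc (g ^ (orderOf g / r)) (pow_mem hg _) r hr (fun e => ?_)
    (orderOf_pow_orderOf_div (orderOf_pos g).ne' hd)
  subst e
  exact hr.one_lt.ne' (Nat.Coprime.eq_one_of_dvd (h.symm) hd)

end PC

open PC in
theorem pcase [Y.Normal] (hn : ¬ NilP p Y) (hi : IP p Y)
    (hO : ∀ O : Subgroup X, O.Normal → O ≤ Y → (Nat.card O).Coprime p → O = ⊥)
    {Q : Subgroup X} [Q.Normal] (hQ : IsPGroup p Q) (QY : Q ≤ Y) (Q1 : Q ≠ ⊥) : OutP p Y := by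
  obtain ⟨v, vQ, vp, v1⟩ := exists_cen hQ Q1
  have hK : NilP p (Y ⊓ centralizer (Q : Set X)) := (hi v vp v1).mono
    (inf_le_inf_left _ (centralizer_le (Set.singleton_subset_iff.2 vQ)))
  obtain ⟨O, o1, o2⟩ := hK.spec
  have On : O.Normal := ⟨fun a ha g => (o2 _).2 ⟨Normal.conj_mem inferInstance a ((o2 a).1 ha).1 g, by
    have : orderOf (g * a * g⁻¹) = orderOf a := (MulAut.conj g).orderOf_eq a
    rw [this]; exact ((o2 a).1 ha).2⟩⟩
  have Ob : O = ⊥ := hO O On (fun a ha => ((o2 a).1 ha).1.1) o1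
  obtain ⟨y, yY, r, hr, rp, hy⟩ := exists_y hn
  have yc : (orderOf y).Coprime p := hy ▸ (Nat.coprime_primes hr Fact.out).2 rp
  refine ⟨y, yY, ⟨r, 1, hr, rp, by rw [hy, pow_one]⟩, fun u up uy => ?_⟩
  by_contra u1
  obtain ⟨N, -, n2, n3, n4⟩ := hi u up u1
  have yN : y ∈ N := n4 y ⟨yY, mem_C.2 uy.symm⟩ yc
  have hP : IsPGroup p (zpowers u) := by
    refine IsPGroup.of_card (n := 1) ?_
    rw [Nat.card_zpowers, pow_one]
    exact orderOf_eq_prime up u1
  have key : zpowers y ≤ centralizer (Q : Set X) := by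
    refine H2.thompson_PxQ hP (by rwa [Nat.card_zpowers]) hQ ?_ le_normalizer_of_normal le_normalizer_of_normal ?_
    · rw [zpowers_le, mem_centralizer_iff]
      rintro _ ⟨n, rfl⟩
      exact (Commute.zpow_left (show Commute y u from uy.symm) n).eq
    · rintro c ⟨cQ, cu⟩
      have c1 : c ∈ Y ⊓ C u := ⟨QY cQ, mem_C.2 (mem_centralizer_iff.1 cu u (mem_zpowers u)).symm⟩
      have m1 : c * y * c⁻¹ * y⁻¹ ∈ N := mul_mem ((mem_normalizer_iff.1 (n2 c1) y).1 yN) (inv_mem yN)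
      have m2 : c * y * c⁻¹ * y⁻¹ ∈ Q := by
        have : c * (y * c⁻¹ * y⁻¹) ∈ Q := Q.mul_mem cQ (Normal.conj_mem inferInstance _ (Q.inv_mem cQ) y)
        simpa only [mul_assoc] using this
      have m3 := eq_one hQ m2 (Nat.Coprime.coprime_dvd_left (orderOf_dvd_natCard _ m1) n3)
      have cy : Commute y c := by
        rw [mul_inv_eq_one, mul_inv_eq_iff_eq_mul] at m3
        exact m3.symm
      rw [mem_centralizer_iff]
      rintro _ ⟨n, rfl⟩
      exact (cy.zpow_left n).eq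
  have : y ∈ O := (o2 y).2 ⟨⟨yY, key (mem_zpowers y)⟩, yc⟩
  rw [Ob, mem_bot] at this
  rw [this, orderOf_one] at hy
  exact hr.one_lt.ne hy

end H50.SQ
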