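import Cfsg.Agent.Lib.SQG.NP1
import Cfsg.Agent.Lib.Core.Coprime

set_option autoImplicit false

namespace H50.SQ

open Subgroup H50.RC

variable {X : Type*} [Group X] [Finite X] {p : ℕ} [Fact p.Prime] {Y : Subgroup X}

theorem ip_quot (O : Subgroup X) [O.Normal] (hO : (Nat.card O).Coprime p) (OY : O ≤ Y)
    (h : IP p Y) : IP p (Y.map (QuotientGroup.mk' O)) := by
  intro ub hp h1
  have pp : p.Prime := Fact.out
  obtain ⟨u0, rfl⟩ := QuotientGroup.mk'_surjective O ub
  obtain ⟨m, -, hm⟩ := Nat.exists_mul_mod_eq_one_of_coprime hO pp.one_lt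
  set π := QuotientGroup.mk' O with hπ
  have e1 : (u0 ^ (Nat.card O * m)) ^ p = 1 := by
    have k : u0 ^ p ∈ O := (QuotientGroup.eq_one_iff _).1 (by rw [← map_pow] at hp; exact hp)
    have : (u0 ^ p) ^ Nat.card O = 1 := congrArg Subtype.val (pow_card_eq_one' (x := (⟨_, k⟩ : O)))
    rw [← pow_mul, mul_comm, ← mul_assoc, pow_mul, pow_mul, this, one_pow]
  have e2 : π (u0 ^ (Nat.card O * m)) = π u0 := by
    rw [map_pow, ← Nat.div_add_mod (Nat.card O * m) p, hm, pow_add, pow_mul, hp, one_pow, one_mul, pow_one]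
  generalize u0 ^ (Nat.card O * m) = u at e1 e2
  rw [← e2] at h1 ⊢
  have u1 : u ≠ 1 := fun e => h1 (by rw [e, map_one])
  have cop : (Nat.card (zpowers u)).Coprime (Nat.card O) := by
    rw [Nat.card_zpowers]
    exact hO.symm.coprime_dvd_left (orderOf_dvd_of_pow_eq_one e1)
  have k := H2.map_mk'_centralizer cop (.inl inferInstance)
  refine ((h u e1 u1).map π).mono ?_
  rintro _ ⟨⟨g, gY, rfl⟩, hg⟩
  have : π g ∈ (centralizer (zpowers u : Set X)).map π := by
    rw [k, MonoidHom.map_zpowers, mem_centralizer_iff]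
    rintro _ ⟨i, rfl⟩
    exact (Commute.zpow_right (mem_C.1 hg) i).symm.eq
  obtain ⟨c, hc, e⟩ := this
  refine ⟨c, ⟨?_, mem_C.2 (hc u (mem_zpowers u)).symm⟩, e⟩
  have := mul_mem gY (inv_mem (OY (QuotientGroup.eq.1 e)))
  simpa using this

theorem outP_lift (O : Subgroup X) [O.Normal] (hO : (Nat.card O).Coprime p)
    (o : OutP p (Y.map (QuotientGroup.mk' O))) : OutP p Y := by
  obtain ⟨y, hy, py, h⟩ := o
  obtain ⟨x, hx, rfl, px⟩ := pq_lift _ hy py
  refine ⟨x, hx, px, fun u up ux => ?_⟩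
  have := h (QuotientGroup.mk' O u) (by rw [← map_pow, up, map_one]) (by rw [← map_mul, ux, map_mul])
  exact orderOf_eq_one_iff.1 (Nat.eq_one_of_dvd_coprimes hO
    (orderOf_dvd_natCard O ((QuotientGroup.eq_one_iff _).1 this)) (orderOf_dvd_of_pow_eq_one up))

end H50.SQ
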