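import Cfsg.Agent.Lib.SQG.Defs
import Cfsg.Agent.Lib.GL.Basic

set_option autoImplicit false

namespace H50.SQ

open Subgroup H50.RC

open Matrix MatrixGroups

namespace RK1

variable {F : Type*} [Field F]

/-- the upper unitriangular matrices -/
def up (F : Type*) [Field F] : Multiplicative F →* SL(2, F) where
  toFun c := ⟨!![1, c.toAdd; 0, 1], by simp [det_fin_two]⟩
  map_one' := Subtype.ext (by simp [one_fin_two])
  map_mul' a b := Subtype.ext (by
    show _ = !![1, a.toAdd; 0, 1] * !![1, b.toAdd; 0, 1]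
    simp [add_comm])

/-- their image in `PSL(2, F)` -/
def upb (F : Type*) [Field F] : Multiplicative F →* PSL(2, F) :=
  (QuotientGroup.mk' (center SL(2, F))).comp (up F)

theorem upb_inj : Function.Injective (upb F) := by
  rw [injective_iff_map_eq_one]
  intro c hc
  obtain ⟨r, -, e⟩ := Matrix.SpecialLinearGroup.mem_center_iff.1
    ((QuotientGroup.eq_one_iff (up F c)).1 hc)
  have := congrFun (congrFun e 0) 1
  simp [up] at this
  exact Multiplicative.toAdd.injective this.symm

end RK1

open RK1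

theorem rk_psl {F : Type*} [Field F] [Fintype F] {n : ℕ} (hn : 1 ≤ n)
    (hF : Fintype.card F = 2 ^ n) (S : Sylow 2 PSL(2, F)) :
    (∀ a ∈ S, a * a = 1) ∧ Nat.card S = 2 ^ n := by
  have h2 : (2 : F) = 0 := by
    have := FiniteField.cast_card_eq_zero F
    rw [hF, Nat.cast_pow] at this
    exact_mod_cast pow_eq_zero_iff (by omega) |>.1 this
  have hq : Nat.card F = 2 ^ n := by rw [Nat.card_eq_fintype_card, hF]
  have ev : Even (2 ^ n) := (Nat.even_pow' (by omega)).2 even_two
  have o1 : Odd (2 ^ n - 1) := Nat.Even.sub_odd Nat.one_le_two_pow ev odd_one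
  have o2 : Odd (2 ^ n + 1) := ev.add_one
  have hc := H10.card_PSL_two (F := F)
  rw [hq, (Nat.coprime_two_left.2 o1 : Nat.gcd 2 _ = 1), one_mul, mul_assoc] at hc
  have hf : (Nat.card PSL(2, F)).factorization 2 = n := by
    have o := o1.mul o2
    rw [hc, Nat.factorization_mul (by positivity) o.pos.ne', Nat.prime_two.factorization_pow]
    simp [Nat.factorization_eq_zero_of_not_dvd o.not_two_dvd_nat]
  have hU : Nat.card (upb F).range = 2 ^ (Nat.card PSL(2, F)).factorization 2 := by
    rw [hf, ← hq]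
    exact (Nat.card_congr (MonoidHom.ofInjective upb_inj).toEquiv).symm
  refine ⟨fun a ha => ?_, by rw [← hf]; exact S.card_eq_multiplicity⟩
  obtain ⟨g, rfl⟩ := MulAction.exists_smul_eq PSL(2, F) (Sylow.ofCard _ hU) S
  obtain ⟨b, ⟨c, rfl⟩, rfl⟩ : ∃ b ∈ (upb F).range, MulAut.conj g b = a := ha
  have : c * c = 1 := Multiplicative.toAdd.injective (by
    rw [toAdd_mul, ← two_mul, h2, zero_mul, toAdd_one])
  rw [← map_mul, ← map_mul, this, map_one, map_one]

end H50.SQ
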