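import Cfsg.Agent.Lib.SQG.Defs
import Cfsg.Agent.Lib.InvChar.BenderAb

set_option autoImplicit false

namespace H50.SQ

open Subgroup H50.RC

theorem rk_sz {L : Type*} [Group L] [Finite L] (h : Cfsg.Lie.IsoSuzuki L) :
    Cz L ∧ ∃ A : Subgroup L, (∀ a ∈ A, a * a = 1) ∧ 8 ≤ Nat.card A := by
  obtain ⟨F, _, _, m, hz, ⟨S⟩⟩ := H72.exists_model_of_isoSuzuki h
  refine ⟨fun U a ha h2 b hb => ?_, S.Z, fun a ha => (S.mem_Z_iff.1 ha).2, ?_⟩
  · obtain ⟨g, hg⟩ := S.exists_conj_U_eq U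
    have ha' : a ∈ (S.conj g).U := hg ▸ ha
    have hb' : b ∈ (S.conj g).U := hg ▸ hb
    exact ((S.conj g).commute_of_mem_Z hb' ((S.conj g).mem_Z_iff.2 ⟨ha', h2⟩)).symm
  · rw [S.card_Z, hz.hF]
    exact Nat.pow_le_pow_right (n := 2) (i := 3) two_pos (by have := hz.hm; omega)

end H50.SQ
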