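import Cfsg.Agent.Lib.SQG.NP2
import Cfsg.Agent.Lib.Core.MinNormal
import Cfsg.Agent.Lib.Core.PCore

set_option autoImplicit false

namespace H50.SQ

open Subgroup H50.RC

universe u

namespace TC

variable {L : Type*} [Group L] [Finite L]

theorem eq_bot (hO : ∀ O : Subgroup L, O.Normal → (Nat.card O).Coprime 2 → O = ⊥)
    (hQ : ∀ Q : Subgroup L, Q.Normal → IsPGroup 2 Q → Q = ⊥) {K : Subgroup L} (n : K.Normal)
    (h : NilP 2 K) : K = ⊥ := by
  obtain ⟨O, h1, h2⟩ := h.spec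
  have h3 : O = ⊥ := hO O ⟨fun a ha g => (h2 _).2 ⟨n.conj_mem a ((h2 a).1 ha).1 g, by
    rw [show orderOf (g * a * g⁻¹) = orderOf a from (MulAut.conj g).orderOf_eq a]
    exact ((h2 a).1 ha).2⟩⟩ h1
  refine hQ K n fun g => ?_
  obtain ⟨k, m, hm, e⟩ := Nat.exists_eq_pow_mul_and_not_dvd (orderOf_pos (g : L)).ne' 2 (by decide)
  refine ⟨k, Subtype.ext ?_⟩
  have : (g : L) ^ 2 ^ k ∈ O := (h2 _).2 ⟨K.pow_mem g.2 _, by
    rw [orderOf_pow, e, Nat.gcd_mul_right_left, Nat.mul_div_cancel_left _ (pow_pos two_pos k)]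
    exact ((Nat.Prime.coprime_iff_not_dvd Nat.prime_two).2 hm).symm⟩
  rw [h3] at this
  simpa using this

end TC

theorem tcase (hs : ∀ (L : Type u) [Group L] [Finite L] [IsSimpleGroup L], ¬ IsMulCommutative L →
      (∀ t : L, orderOf t = 2 → Cfsg.HasNormalPComplement 2 ↥(centralizer ({t} : Set L))) → OCN L)
    {X : Type u} [Group X] [Finite X] {Y : Subgroup X} [Y.Normal] (Y1 : Y ≠ ⊥) (hi : IP 2 Y)
    (hO : ∀ O : Subgroup X, O.Normal → O ≤ Y → (Nat.card O).Coprime 2 → O = ⊥)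
    (hQ : ∀ Q : Subgroup X, Q.Normal → Q ≤ Y → IsPGroup 2 Q → Q = ⊥) : OutP 2 Y := by
  obtain ⟨L, hL, LY⟩ := H3.exists_isMinNormal_le Y Y1
  have := hL.normal
  have mb : ∀ {A : Subgroup L} {B : Subgroup X}, A.map L.subtype ≤ B → B ⊓ L = ⊥ → A = ⊥ := fun {A B} h e =>
    (map_eq_bot_iff_of_injective _ L.subtype_injective).1 (le_bot_iff.1 (e ▸ le_inf h (map_subtype_le A)))
  have hO' : ∀ O : Subgroup L, O.Normal → (Nat.card O).Coprime 2 → O = ⊥ := fun O n h =>
    mb ((map_mono (H1.le_pPrimeCore h)).trans (H1.map_subtype_pPrimeCore_le L))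
      (hO _ inferInstance (inf_le_right.trans LY)
        (H1.coprime_card_pPrimeCore.coprime_dvd_left (card_dvd_of_le inf_le_left)))
  have hQ' : ∀ Q : Subgroup L, Q.Normal → IsPGroup 2 Q → Q = ⊥ := fun Q n h =>
    mb ((map_mono (H1.le_pCore h)).trans (H1.map_subtype_pCore_le L))
      (hQ _ inferInstance (inf_le_right.trans LY) (H1.isPGroup_pCore.to_le inf_le_left))
  have hi' : ∀ u : X, u ^ 2 = 1 → u ≠ 1 → ∀ H : Subgroup L, (∀ g ∈ H, (g : X) * u = u * g) → NilP 2 H :=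
    fun u h1 h2 H h => NilP.of_map L.subtype ((hi u h1 h2).mono (by
      rintro _ ⟨g, hg, rfl⟩
      exact ⟨LY g.2, mem_centralizer_singleton_iff.2 (h g hg)⟩)) fun g _ e => by
        rw [show g = 1 from Subtype.ext e]; simp
  have hi2 : ∀ t : L, orderOf t = 2 → ∀ H : Subgroup L, (∀ g ∈ H, g * t = t * g) → NilP 2 H :=
    fun t ht H h => hi' t (by rw [← ht]; exact congrArg Subtype.val (pow_orderOf_eq_one t))
      (fun e => by rw [show t = 1 from Subtype.ext e] at ht; simp at ht) H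
      fun g hg => congrArg Subtype.val (h g hg)
  have nt := hL.nontrivial
  have sim : IsSimpleGroup L := ⟨fun H n => or_iff_not_imp_left.2 fun h => by
    obtain ⟨K, hK, KH⟩ := H3.exists_isMinNormal_le H h
    have := hK.normal
    by_cases e : ∀ x : X, K ≤ K.comap (MulAut.conjNormal (H := L) x).toMonoidHom
    · rcases hL.eq_bot_or_eq (K.map L.subtype) ⟨by
        rintro _ ⟨g, hg, rfl⟩ x
        exact ⟨_, e x hg, rfl⟩⟩ (map_subtype_le K) with e' | e'
      · exact (hK.ne_bot ((map_eq_bot_iff_of_injective _ L.subtype_injective).1 e')).elim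
      · refine eq_top_iff.2 fun g _ => KH ?_
        obtain ⟨k, hk, e2⟩ := e'.ge g.2
        exact (Subtype.ext e2 : k = g) ▸ hk
    · obtain ⟨x, hx⟩ := not_forall.1 e
      have h1 := (hK.inf_eq_bot_or_le (K.comap (MulAut.conjNormal (H := L) x).toMonoidHom)).resolve_right hx
      generalize e2 : K.comap (MulAut.conjNormal (H := L) x).toMonoidHom = K' at h1
      have n' : K'.Normal := e2 ▸ inferInstance
      have h2 : K' ≠ ⊥ := fun e3 => hK.ne_bot (eq_bot_iff.2 fun k hk => by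
        have : (MulAut.conjNormal (H := L) x).symm k ∈ K' := e2 ▸ (by simpa [mem_comap] using hk)
        rw [e3] at this
        simpa using this)
      have h3 : 2 ∣ Nat.card K' := by
        by_contra e3
        exact h2 (hO' K' n' ((Nat.Prime.coprime_iff_not_dvd Nat.prime_two).2 e3).symm)
      obtain ⟨v, hv⟩ := exists_prime_orderOf_dvd_card' 2 h3
      exact (hK.ne_bot (TC.eq_bot hO' hQ' hK.normal (hi2 v (by rwa [orderOf_coe]) K fun g hg =>
        commute_of_normal_of_disjoint K K' hK.normal n' (disjoint_iff.2 h1) g v hg v.2))).elim⟩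
  have nc : ¬ IsMulCommutative L := fun c => top_ne_bot (TC.eq_bot hO' hQ' (K := ⊤) inferInstance
    (nilP_of_mul fun a _ b _ ha hb => (Nat.Coprime.mul_left ha hb).coprime_dvd_left
      (Commute.orderOf_mul_dvd_mul_orderOf (c.1.1 a b))))
  obtain ⟨y, y1, y2, y3⟩ := hs L nc fun t ht => nilP_iff.1
    (hi2 t ht _ fun g hg => mem_centralizer_singleton_iff.1 hg)
  obtain ⟨r, k, r1, r2, r3⟩ := pq_two y1 y2
  refine ⟨y, LY y.2, ⟨r, k, r1, r2, by rwa [orderOf_coe]⟩, fun u h1 h2 => by_contra fun h3 => ?_⟩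
  refine y3 (MulAut.conjNormal u) (by rw [← map_mul, ← sq, h1, map_one]) (Subtype.ext ?_)
    (nil2_iff.2 (hi' u h1 h3 _ fun g hg => ?_))
  · rw [MulAut.conjNormal_apply, h2, mul_inv_cancel_right]
  · have := congrArg Subtype.val (mem_Fix.1 hg)
    rw [MulAut.conjNormal_apply] at this
    exact (mul_inv_eq_iff_eq_mul.1 this).symm

end H50.SQ
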